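import Mathlib
import Cfsg.Agent.Lib.Kreknin.Associated
import Cfsg.Agent.Lib.Thompson.MaxClass

/-! Lower bounds for the factors of the derived series of a finite p-group. -/

set_option autoImplicit false

namespace Cfsg.Agent.Lib.DerivedLength

open Subgroup Kreknin
open scoped commutatorElement

variable {G : Type*} [Group G]

theorem commutator_ucs_top_le (j : ℕ) :
    ⁅Subgroup.upperCentralSeries G (j + 1), (⊤ : Subgroup G)⁆ ≤ Subgroup.upperCentralSeries G j :=
  commutator_le.2 fun _ hx y _ => Subgroup.mem_upperCentralSeries_succ_iff.1 hx y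

theorem commutator_gam_ucs_le : ∀ i j : ℕ,
    ⁅gam G i, Subgroup.upperCentralSeries G (j + i + 1)⁆ ≤ Subgroup.upperCentralSeries G j := by
  intro i
  induction i with
  | zero => intro j; rw [commutator_comm]; exact commutator_ucs_top_le j
  | succ i ih =>
    intro j
    rw [gam_succ]
    refine three_subgroups ?_ ?_
    · rw [commutator_comm (⊤ : Subgroup G)]
      refine (commutator_mono (commutator_ucs_top_le (j + (i + 1))) le_rfl).trans ?_
      rw [commutator_comm, show j + (i + 1) = j + i + 1 by omega]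
      exact ih j
    · refine (commutator_mono ?_ le_rfl).trans (commutator_ucs_top_le j)
      rw [commutator_comm, show j + (i + 1) + 1 = j + 1 + i + 1 by omega]
      exact ih (j + 1)

/-- A subgroup inside `gam i` centralizes `Subgroup.upperCentralSeries (i + 1)`. -/
theorem commute_gam_ucs {i : ℕ} {x y : G} (hx : x ∈ gam G i)
    (hy : y ∈ Subgroup.upperCentralSeries G (i + 1)) : x * y = y * x := by
  have h := commutator_gam_ucs_le i 0 (commutator_mem_commutator hx (by rwa [zero_add]))
  rwa [Subgroup.upperCentralSeries_zero, mem_bot, commutatorElement_eq_one_iff_mul_comm] at h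

variable [Finite G] {p : ℕ} [hp : Fact p.Prime]

theorem inf_ucs_strict (hG : IsPGroup p G) (H : Subgroup G) [H.Normal] {j : ℕ}
    (h : ¬ H ≤ Subgroup.upperCentralSeries G j) :
    H ⊓ Subgroup.upperCentralSeries G j < H ⊓ Subgroup.upperCentralSeries G (j + 1) := by
  refine lt_of_le_of_ne (inf_le_inf_left H (Subgroup.upperCentralSeries_mono G j.le_succ)) fun e => h ?_
  haveI : Group.IsNilpotent G := hG.isNilpotent
  have key : ∀ k, H ⊓ Subgroup.upperCentralSeries G k ≤ Subgroup.upperCentralSeries G j := by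
    intro k
    induction k with
    | zero => rw [Subgroup.upperCentralSeries_zero]; simp
    | succ k ih =>
      intro x hx
      obtain ⟨hxH, hxk⟩ := mem_inf.1 hx
      have hx1 : x ∈ H ⊓ Subgroup.upperCentralSeries G (j + 1) := by
        refine mem_inf.2 ⟨hxH, Subgroup.mem_upperCentralSeries_succ_iff.2 fun y => ih (mem_inf.2 ⟨?_, ?_⟩)⟩
        · have := H.mul_mem hxH ((inferInstance : H.Normal).conj_mem _ (H.inv_mem hxH) y)
          rw [show ⁅x, y⁆ = x * (y * x⁻¹ * y⁻¹) by rw [commutatorElement_def]; group]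
          exact this
        · exact Subgroup.mem_upperCentralSeries_succ_iff.1 hxk y
      rw [← e] at hx1
      exact (mem_inf.1 hx1).2
  have h1 := key (Group.nilpotencyClass G)
  rw [Subgroup.upperCentralSeries_nilpotencyClass, inf_top_eq] at h1
  exact h1

theorem inf_ucs_card (hG : IsPGroup p G) (H : Subgroup G) [H.Normal] : ∀ i : ℕ,
    ¬ H ≤ Subgroup.upperCentralSeries G (i + 1) →
    p ^ i * Nat.card ↥(H ⊓ Subgroup.upperCentralSeries G 1 : Subgroup G) ≤
      Nat.card ↥(H ⊓ Subgroup.upperCentralSeries G (i + 1) : Subgroup G) := by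
  intro i
  induction i with
  | zero => intro _; simp
  | succ i ih =>
    intro h
    have h' : ¬ H ≤ Subgroup.upperCentralSeries G (i + 1) := fun h0 =>
      h (h0.trans (Subgroup.upperCentralSeries_mono G (Nat.le_succ _)))
    refine le_trans ?_ (Thompson.card_mul_p_le hG (inf_ucs_strict hG H (j := i + 1) h'))
    rw [pow_succ', mul_assoc]
    exact Nat.mul_le_mul_left _ (ih h')

omit [Finite G] hp in
theorem commutator_le_of_gens {H M : Subgroup G} [M.Normal] (S : Set G) (hS : H ≤ closure S)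
    (hc : ∀ x ∈ S, ∀ y ∈ S, ⁅x, y⁆ ∈ M) : ⁅H, H⁆ ≤ M := by
  refine (commutator_mono hS hS).trans ?_
  rw [← QuotientGroup.ker_mk' M, ← MonoidHom.comap_bot, ← map_le_iff_le_comap, map_commutator,
    MonoidHom.map_closure, le_bot_iff, commutator_eq_bot_iff_le_centralizer, closure_le]
  rintro _ ⟨x, hx, rfl⟩
  rw [SetLike.mem_coe, centralizer_closure, mem_centralizer_iff]
  rintro _ ⟨y, hy, rfl⟩
  rw [← commutatorElement_eq_one_iff_mul_comm, ← map_commutatorElement, QuotientGroup.mk'_apply,
    QuotientGroup.eq_one_iff]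
  exact hc y hy x hx

/-- The core counting lemma, in a quotient where the derived subgroup of `H` is central. -/
theorem card_core (hG : IsPGroup p G) (H : Subgroup G) [H.Normal] {i : ℕ} (hH : H ≤ gam G i)
    (hne : ⁅H, H⁆ ≠ ⊥) (hcen : ⁅H, H⁆ ≤ center G) (hexp : ∀ c ∈ ⁅H, H⁆, c ^ p = 1) :
    p ^ (i + 2) * Nat.card ↥⁅H, H⁆ ≤ Nat.card ↥H ∧
      (p < Nat.card ↥⁅H, H⁆ → p ^ (i + 3) * Nat.card ↥⁅H, H⁆ ≤ Nat.card ↥H) := by
  have hnotle : ¬ H ≤ Subgroup.upperCentralSeries G (i + 1) := fun h => hne <| by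
    rw [commutator_eq_bot_iff_le_centralizer]
    intro x hx
    rw [mem_centralizer_iff]
    intro y hy
    exact commute_gam_ucs (hH hy) (h hx)
  set Z := center ↥H with hZdef
  have hC : p ^ i * Nat.card ↥⁅H, H⁆ ≤ Nat.card ↥(H ⊓ Subgroup.upperCentralSeries G (i + 1) : Subgroup G) := by
    refine le_trans (Nat.mul_le_mul_left _ ?_) (inf_ucs_card hG H i hnotle)
    refine card_le_of_le ?_
    rw [Subgroup.upperCentralSeries_one]
    exact le_inf (commutator_le_self H) hcen
  have hZge : Nat.card ↥(H ⊓ Subgroup.upperCentralSeries G (i + 1) : Subgroup G) ≤ Nat.card ↥Z := by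
    rw [← card_map_of_injective H.subtype_injective (K := Z)]
    refine card_le_of_le fun x hx => ?_
    obtain ⟨hxH, hxZ⟩ := mem_inf.1 hx
    refine ⟨⟨x, hxH⟩, mem_center_iff.2 fun y => Subtype.ext ?_, rfl⟩
    exact commute_gam_ucs (hH y.2) hxZ
  have hidx : ∃ a, Z.index = p ^ a := (hG.to_subgroup H).index Z
  obtain ⟨a, ha⟩ := hidx
  have hmul := Z.card_mul_index
  have hncyc : ¬ IsCyclic (↥H ⧸ Z) := fun hc => hne <| by
    letI := hc
    rw [commutator_eq_bot_iff_le_centralizer]
    intro x hx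
    rw [mem_centralizer_iff]
    intro y hy
    have := commutative_of_cyclic_center_quotient (QuotientGroup.mk' Z)
      (by rw [QuotientGroup.ker_mk']) (⟨y, hy⟩ : ↥H) ⟨x, hx⟩
    exact congrArg Subtype.val this
  have ha2 : 2 ≤ a := by
    by_contra hlt
    apply hncyc
    have hc : Nat.card (↥H ⧸ Z) = p ^ a := ha
    rcases Nat.le_one_iff_eq_zero_or_eq_one.1 (by omega : a ≤ 1) with rfl | rfl
    · haveI : Subsingleton (↥H ⧸ Z) := (Nat.card_eq_one_iff_unique.1 (by rw [hc, pow_zero])).1
      infer_instance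
    · exact isCyclic_of_prime_card (by rw [hc, pow_one])
  have hpp : 1 < p := hp.out.one_lt
  refine ⟨?_, fun hbig => ?_⟩
  · calc p ^ (i + 2) * Nat.card ↥⁅H, H⁆ = p ^ 2 * (p ^ i * Nat.card ↥⁅H, H⁆) := by ring
      _ ≤ Z.index * Nat.card ↥Z := by
        rw [ha]; exact Nat.mul_le_mul (Nat.pow_le_pow_right hp.out.pos ha2) (hC.trans hZge)
      _ = Nat.card ↥H := by rw [mul_comm]; exact hmul
  · have ha3 : 3 ≤ a := by
      by_contra hlt
      obtain rfl : a = 2 := by omega
      -- two elements generate H modulo its centre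
      obtain ⟨x, hx⟩ : ∃ x : ↥H, x ∉ Z := by
        by_contra hall
        push Not at hall
        rw [(eq_top_iff' Z).2 hall, index_top] at ha
        have := Nat.one_lt_pow (two_ne_zero) hpp
        omega
      set K := Z ⊔ zpowers x with hK
      have hlt : Z < K := lt_of_le_of_ne le_sup_left fun e =>
        hx (e ▸ (le_sup_right : zpowers x ≤ Z ⊔ zpowers x) (mem_zpowers x))
      have hKtop : K ≠ ⊤ := fun e => hncyc <| by
        refine ⟨⟨QuotientGroup.mk' Z x, fun q => ?_⟩⟩
        obtain ⟨q, rfl⟩ := QuotientGroup.mk'_surjective Z q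
        have hq : q ∈ K := e ▸ mem_top q
        have hmap : K.map (QuotientGroup.mk' Z) = zpowers (QuotientGroup.mk' Z x) := by
          rw [hK, Subgroup.map_sup, (Subgroup.map_eq_bot_iff _).2 (by rw [QuotientGroup.ker_mk']), bot_sup_eq,
            MonoidHom.map_zpowers]
        have hq' := mem_map_of_mem (QuotientGroup.mk' Z) hq
        rwa [hmap] at hq'
      obtain ⟨y, -, hy⟩ := SetLike.exists_of_lt (lt_top_iff_ne_top.2 hKtop)
      have hgen : K ⊔ zpowers y = ⊤ := by
        refine eq_top_of_le_card _ ?_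
        have hlt2 : K < K ⊔ zpowers y := lt_of_le_of_ne le_sup_left fun e =>
          hy (e ▸ (le_sup_right : zpowers y ≤ K ⊔ zpowers y) (mem_zpowers y))
        have h1 := Thompson.card_mul_p_le (hG.to_subgroup H) hlt
        have h2 := Thompson.card_mul_p_le (hG.to_subgroup H) hlt2
        calc Nat.card ↥H = Nat.card ↥Z * p ^ 2 := by rw [← hmul, ha]
          _ = p * (p * Nat.card ↥Z) := by ring
          _ ≤ _ := (Nat.mul_le_mul_left _ h1).trans h2
      set c := ⁅(x : G), (y : G)⁆ with hc
      have hcC : c ∈ ⁅H, H⁆ := commutator_mem_commutator x.2 y.2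
      haveI : (zpowers c).Normal := ⟨fun z hz g => by
        obtain ⟨k, rfl⟩ := hz
        have := mem_center_iff.1 (hcen ((⁅H, H⁆).zpow_mem hcC k)) g
        rw [this, mul_inv_cancel_right]
        exact ⟨k, rfl⟩⟩
      have hle : ⁅H, H⁆ ≤ zpowers c := by
        refine commutator_le_of_gens (((H.subtype) '' (Z : Set ↥H)) ∪ {(x : G), (y : G)}) ?_ ?_
        · intro z hz
          have h1 : (⟨z, hz⟩ : ↥H) ∈ K ⊔ zpowers y := hgen ▸ mem_top _
          have h2 : K ⊔ zpowers y ≤ (closure (((H.subtype) '' (Z : Set ↥H)) ∪ {(x : G), (y : G)})).comap H.subtype := by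
            rw [hK]
            refine sup_le (sup_le (fun w hw => ?_) ((zpowers_le).2 ?_)) ((zpowers_le).2 ?_)
            · exact subset_closure (Or.inl ⟨w, hw, rfl⟩)
            · exact subset_closure (Or.inr (Or.inl rfl))
            · exact subset_closure (Or.inr (Or.inr rfl))
          exact h2 h1
        · have hz : ∀ (w : ↥H), w ∈ Z → ∀ v ∈ H, ⁅(w : G), v⁆ = 1 := fun w hw v hv => by
            rw [commutatorElement_eq_one_iff_mul_comm]
            exact (congrArg Subtype.val (mem_center_iff.1 hw ⟨v, hv⟩)).symm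
          have hmemH : ∀ u ∈ ((H.subtype) '' (Z : Set ↥H)) ∪ {(x : G), (y : G)}, u ∈ H := by
            rintro u (⟨w, -, rfl⟩ | rfl | rfl)
            exacts [w.2, x.2, y.2]
          rintro u hu v hv
          rcases hu with ⟨w, hw, rfl⟩ | rfl | rfl
          · rw [coe_subtype, hz w hw v (hmemH v hv)]; exact one_mem _
          all_goals rcases hv with ⟨w, hw, rfl⟩ | rfl | rfl
          all_goals first
            | (rw [commutatorElement_self]; exact one_mem _)
            | exact mem_zpowers c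
            | (rw [← commutatorElement_inv]; exact (zpowers c).inv_mem (mem_zpowers c))
            | (rw [coe_subtype, ← commutatorElement_inv, hz w hw _ x.2, inv_one]; exact one_mem _)
            | (rw [coe_subtype, ← commutatorElement_inv, hz w hw _ y.2, inv_one]; exact one_mem _)
      have h1 := card_le_of_le hle
      rw [Nat.card_zpowers] at h1
      have h2 : orderOf c ≤ p := Nat.le_of_dvd hp.out.pos (orderOf_dvd_of_pow_eq_one (hexp c hcC))
      omega
    calc p ^ (i + 3) * Nat.card ↥⁅H, H⁆ = p ^ 3 * (p ^ i * Nat.card ↥⁅H, H⁆) := by ring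
      _ ≤ Z.index * Nat.card ↥Z := by
        rw [ha]; exact Nat.mul_le_mul (Nat.pow_le_pow_right hp.out.pos ha3) (hC.trans hZge)
      _ = Nat.card ↥H := by rw [mul_comm]; exact hmul

/-- `N` is cyclic modulo `⁅N, G⁆`. -/
def CycTop (N : Subgroup G) : Prop := ∃ c ∈ N, N ≤ zpowers c ⊔ ⁅N, (⊤ : Subgroup G)⁆

omit [Finite G] hp in
theorem commutator_le_gam_of_cycTop {N : Subgroup G} {i : ℕ} (hN : N ≤ gam G i) (hc : CycTop N) :
    ⁅N, N⁆ ≤ gam G (2 * i + 2) := by
  obtain ⟨c, hcN, hgen⟩ := hc
  have hL : ⁅N, (⊤ : Subgroup G)⁆ ≤ gam G (i + 1) := commutator_mono hN le_rfl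
  refine commutator_le_of_gens ({c} ∪ (gam G (i + 1) : Set G)) (hgen.trans (sup_le ?_ ?_)) ?_
  · exact zpowers_le.2 (subset_closure (Or.inl rfl))
  · exact fun x hx => subset_closure (Or.inr (hL hx))
  · rintro u (rfl | hu) v (rfl | hv)
    · rw [commutatorElement_self]; exact one_mem _
    · exact gam_antitone (by omega) (comm_mem (hN hcN) hv)
    · exact gam_antitone (by omega) (comm_mem hu (hN hcN))
    · exact gam_antitone (by omega) (comm_mem hu hv)

theorem exists_central_layer (hG : IsPGroup p G) (N : Subgroup G) [N.Normal] (hN : N ≠ ⊥) :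
    ∃ M : Subgroup G, M.Normal ∧ M ≤ N ∧ ¬ N ≤ M ∧ ⁅N, (⊤ : Subgroup G)⁆ ≤ M ∧
      (∀ x ∈ N, x ^ p ∈ M) ∧ (¬ CycTop N → p * Nat.card ↥M < Nat.card ↥N) := by
  set L := ⁅N, (⊤ : Subgroup G)⁆ with hLdef
  have hLN : L ≤ N := commutator_le_left N ⊤
  set S : Set G := {z | ∃ x ∈ N, x ^ p = z} with hSdef
  set M := L ⊔ closure S with hMdef
  have hSN : S ⊆ N := by rintro _ ⟨x, hx, rfl⟩; exact N.pow_mem hx p
  have hMN : M ≤ N := sup_le hLN ((closure_le N).2 hSN)
  haveI hSn : (closure S).Normal := by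
    refine ⟨fun z hz g => ?_⟩
    have h1 : closure S ≤ (closure S).comap (MulAut.conj g).toMonoidHom := by
      refine (closure_le _).2 ?_
      rintro _ ⟨x, hx, rfl⟩
      refine subset_closure ⟨g * x * g⁻¹, (inferInstance : N.Normal).conj_mem x hx g, ?_⟩
      simp [conj_pow]
    exact h1 hz
  haveI hMn : M.Normal := sup_normal L (closure S)
  -- if one element generates `N` modulo `M`, then it does so modulo `L`
  have key : ∀ c ∈ N, N ≤ zpowers c ⊔ M → N ≤ zpowers c ⊔ L := by
    intro c hcN hgen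
    set π := QuotientGroup.mk' L with hπ
    have hcomm : ∀ a ∈ N, ∀ b : G, π a * π b = π b * π a := fun a ha b => by
      rw [← commutatorElement_eq_one_iff_mul_comm, ← map_commutatorElement, hπ,
        QuotientGroup.mk'_apply, QuotientGroup.eq_one_iff]
      exact commutator_mem_commutator ha (mem_top b)
    -- the set of products of a power of `c` and a p-th power, modulo `L`
    have step : ∀ x ∈ N, ∃ (k : ℤ) (y : G), y ∈ N ∧ π x = π c ^ k * π y ^ p := by
      let T : Subgroup G :=
        { carrier := {x | x ∈ N ∧ ∃ (k : ℤ) (y : G), y ∈ N ∧ π x = π c ^ k * π y ^ p}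
          one_mem' := ⟨N.one_mem, 0, 1, N.one_mem, by simp⟩
          mul_mem' := by
            rintro a b ⟨ha, k, y, hy, e⟩ ⟨hb, l, z, hz, f⟩
            refine ⟨N.mul_mem ha hb, k + l, y * z, N.mul_mem hy hz, ?_⟩
            have c1 : Commute (π y ^ p) (π c ^ l) := by
              have : Commute (π y) (π c) := hcomm y hy c
              exact (this.pow_left p).zpow_right l
            have c2 : Commute (π y) (π z) := hcomm y hy z
            rw [map_mul, map_mul, e, f, c2.mul_pow, zpow_add, mul_assoc, mul_assoc,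
              ← mul_assoc (π y ^ p), c1.eq, mul_assoc]
          inv_mem' := by
            rintro a ⟨ha, k, y, hy, e⟩
            refine ⟨N.inv_mem ha, -k, y⁻¹, N.inv_mem hy, ?_⟩
            have : Commute (π y) (π c) := hcomm y hy c
            rw [map_inv, e, mul_inv_rev, map_inv, zpow_neg, inv_pow,
              ((this.pow_left p).zpow_right k).inv_inv.eq] }
      have hT : zpowers c ⊔ M ≤ T := by
        refine sup_le (zpowers_le.2 ⟨hcN, 1, 1, N.one_mem, by simp⟩) (sup_le ?_ ((closure_le T).2 ?_))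
        · intro x hx
          refine ⟨hLN hx, 0, 1, N.one_mem, ?_⟩
          rw [map_one, one_pow, zpow_zero, one_mul, hπ, QuotientGroup.mk'_apply,
            QuotientGroup.eq_one_iff]
          exact hx
        · rintro _ ⟨x, hx, rfl⟩
          exact ⟨N.pow_mem hx p, 0, x, hx, by simp⟩
      exact fun x hx => (hT (hgen hx)).2
    have iter : ∀ n : ℕ, ∀ x ∈ N, ∃ (k : ℤ) (y : G), y ∈ N ∧ π x = π c ^ k * π y ^ (p ^ n) := by
      intro n
      induction n with
      | zero => exact fun x hx => ⟨0, x, hx, by simp⟩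
      | succ n ih =>
        intro x hx
        obtain ⟨k, y, hy, e⟩ := ih x hx
        obtain ⟨l, z, hz, f⟩ := step y hy
        refine ⟨k + l * (p ^ n : ℕ), z, hz, ?_⟩
        have : Commute (π c ^ l) (π z ^ p) :=
          ((show Commute (π c) (π z) from hcomm c hcN z).zpow_left l).pow_right p
        rw [e, f, this.mul_pow, ← pow_mul, ← pow_succ', zpow_add, mul_assoc]
        congr 2
        rw [← zpow_natCast, ← zpow_mul]
    intro x hx
    obtain ⟨n, hn⟩ := IsPGroup.iff_card.1 hG
    obtain ⟨k, y, hy, e⟩ := iter n x hx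
    have hy1 : y ^ (p ^ n) = 1 := by rw [← hn]; exact pow_card_eq_one'
    rw [← map_pow, hy1, map_one, mul_one, ← map_zpow] at e
    have h1 : (c ^ k)⁻¹ * x ∈ L := by
      rw [← QuotientGroup.eq]; exact e.symm
    have h2 := (zpowers c ⊔ L).mul_mem
      ((le_sup_left : zpowers c ≤ zpowers c ⊔ L) ⟨k, rfl⟩) ((le_sup_right : L ≤ zpowers c ⊔ L) h1)
    rwa [mul_inv_cancel_left] at h2
  have hnot : ¬ N ≤ M := fun hle => hN <| by
    have h1 := key 1 N.one_mem (hle.trans le_sup_right)
    rw [zpowers_one_eq_bot, bot_sup_eq] at h1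
    haveI : Group.IsNilpotent G := hG.isNilpotent
    have h2 : ∀ k, N ≤ gam G k := by
      intro k
      induction k with
      | zero => exact le_top
      | succ k ih => exact h1.trans (commutator_mono ih le_rfl)
    have h3 := h2 (Group.nilpotencyClass G)
    rw [gam, Subgroup.lowerCentralSeries_nilpotencyClass, le_bot_iff] at h3
    exact h3
  refine ⟨M, hMn, hMN, hnot, le_sup_left, fun x hx =>
    (le_sup_right : closure S ≤ M) (subset_closure ⟨x, hx, rfl⟩), fun hcy => ?_⟩
  obtain ⟨c, hcN, hcM⟩ := SetLike.not_le_iff_exists.1 hnot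
  have hlt : M < zpowers c ⊔ M := lt_of_le_of_ne le_sup_right fun e =>
    hcM (e ▸ (le_sup_left : zpowers c ≤ zpowers c ⊔ M) (mem_zpowers c))
  have hlt2 : zpowers c ⊔ M < N := lt_of_le_of_ne (sup_le (zpowers_le.2 hcN) hMN) fun e =>
    hcy ⟨c, hcN, key c hcN e.ge⟩
  have h1 := Thompson.card_mul_p_le hG hlt
  have h2 := Thompson.card_mul_p_le hG hlt2
  have h3 : 1 < p := hp.out.one_lt
  have h4 : 0 < Nat.card ↥(zpowers c ⊔ M : Subgroup G) := Nat.card_pos
  have h5 : Nat.card ↥(zpowers c ⊔ M : Subgroup G) < p * Nat.card ↥(zpowers c ⊔ M : Subgroup G) :=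
    lt_mul_left h4 h3
  omega

omit hp in
theorem card_map_mk'_mul (M : Subgroup G) [M.Normal] {K : Subgroup G} (hMK : M ≤ K) :
    Nat.card ↥(K.map (QuotientGroup.mk' M)) * Nat.card ↥M = Nat.card ↥K := by
  have h := relIndex_map_map (QuotientGroup.mk' M) (⊥ : Subgroup G) K
  rw [Subgroup.map_bot, relIndex_bot_left, QuotientGroup.ker_mk', bot_sup_eq,
    sup_eq_left.2 hMK] at h
  rw [h]
  have h2 := relIndex_mul_relIndex (⊥ : Subgroup G) M K bot_le hMK
  rw [relIndex_bot_left, relIndex_bot_left] at h2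
  rw [mul_comm]; exact h2

/-- Hall's bound for `|H : H'|` when `H ≤ gam i`, and its improvement when `H'` is not cyclic
modulo `⁅H', G⁆`. -/
theorem card_derived_step (hG : IsPGroup p G) (H : Subgroup G) [H.Normal] {i : ℕ}
    (hH : H ≤ gam G i) (hne : ⁅H, H⁆ ≠ ⊥) :
    p ^ (i + 2) * Nat.card ↥⁅H, H⁆ ≤ Nat.card ↥H ∧
      (¬ CycTop ⁅H, H⁆ → p ^ (i + 3) * Nat.card ↥⁅H, H⁆ ≤ Nat.card ↥H) := by
  obtain ⟨M, hMn, hMN, hnot, hcen, hexp, hbig⟩ := exists_central_layer hG ⁅H, H⁆ hne
  set π := QuotientGroup.mk' M with hπ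
  haveI : (H.map π).Normal := Subgroup.Normal.map inferInstance π (QuotientGroup.mk'_surjective M)
  have hN : ⁅H.map π, H.map π⁆ = (⁅H, H⁆).map π := (map_commutator H H π).symm
  have c1 := card_map_mk'_mul M (hMN.trans (commutator_le_self H))
  have c2 := card_map_mk'_mul M hMN
  rw [← hπ] at c1 c2
  obtain ⟨h1, h2⟩ := card_core (G := G ⧸ M) (p := p) (i := i)
    (hG.to_quotient M) (H.map π)
    (by
      refine (map_mono hH).trans (le_of_eq ?_)
      rw [gam, gam, Subgroup.map_lowerCentralSeries,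
        map_top_of_surjective π (QuotientGroup.mk'_surjective M)])
    (by rw [hN, Ne, Subgroup.map_eq_bot_iff, hπ, QuotientGroup.ker_mk']; exact hnot)
    (by
      rw [hN]
      rintro _ ⟨x, hx, rfl⟩
      rw [mem_center_iff]
      intro g
      obtain ⟨g, rfl⟩ := QuotientGroup.mk'_surjective M g
      refine (commutatorElement_eq_one_iff_mul_comm.1 ?_).symm
      rw [← map_commutatorElement, hπ, QuotientGroup.mk'_apply, QuotientGroup.eq_one_iff]
      exact hcen (commutator_mem_commutator hx (mem_top g)))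
    (by
      rw [hN]
      rintro _ ⟨x, hx, rfl⟩
      rw [← map_pow, hπ, QuotientGroup.mk'_apply, QuotientGroup.eq_one_iff]
      exact hexp x hx)
  rw [hN] at h1 h2
  refine ⟨?_, fun hcy => ?_⟩
  · rw [← c1, ← c2, ← mul_assoc]
    exact Nat.mul_le_mul_right _ h1
  · rw [← c1, ← c2, ← mul_assoc]
    refine Nat.mul_le_mul_right _ (h2 ?_)
    have hb := hbig hcy
    rw [← c2] at hb
    exact lt_of_mul_lt_mul_right hb (Nat.zero_le _)

end Cfsg.Agent.Lib.DerivedLength
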